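import Mathlib
import Cfsg.Agent.Lib.IsoTwo.Basic
import Cfsg.Agent.Lib.ZStar.Cor

/-!
# A nonabelian `2`-group acting with a shared centralizer

Let `G = QN` with `N` normal, `Q` a `2`-group, `Q ∩ N = 1`, and `t ∈ Z(Q) ∩ [Q, Q]` with
`C_N(Q) = C_N(t)`.  Then `t` is isolated, hence central mod `O(G)`, and `[N, Q] ≤ O(G)`.
-/

set_option autoImplicit false
set_option linter.unusedSectionVars false

namespace Cfsg.Agent.Lib.IsoTwo.Shared

open Subgroup Cfsg Cfsg.Agent.Lib.IsoTwo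
open scoped commutatorElement

universe u

variable {G : Type u} [Group G] [Finite G]

section Setup

variable (N Q : Subgroup G) [N.Normal] (hG : Q ⊔ N = ⊤) (hdisj : Q ⊓ N = ⊥) (t : G)
  (htZ : t ∈ Q ⊓ Subgroup.centralizer (Q : Set G))
  (hC : N ⊓ Subgroup.centralizer (Q : Set G) = N ⊓ Subgroup.centralizer ({t} : Set G))
  (htQ : t ∈ ⁅Q, Q⁆)

include htZ hC htQ in
/-- If `n ∈ N` and `n t n⁻¹` commutes with `t`, then `n` commutes with `t`. -/
theorem commute_of_conj_commute {n : G} (hn : n ∈ N) (hcomm : Commute (n * t * n⁻¹) t) :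
    n * t = t * n := by
  have hNn : N.Normal := inferInstance
  have htQ' : t ∈ Q := htZ.1
  have htc : ∀ q ∈ Q, q * t = t * q := fun q hq =>
    (Subgroup.mem_centralizer_iff.1 htZ.2 q hq)
  have hWQ : ∀ y ∈ N, y * t = t * y → ∀ q ∈ Q, q * y = y * q := by
    intro y hy hyt q hq
    have h1 : y ∈ N ⊓ centralizer ({t} : Set G) :=
      ⟨hy, Subgroup.mem_centralizer_singleton_iff.2 hyt⟩
    rw [← hC] at h1
    exact Subgroup.mem_centralizer_iff.1 h1.2 q hq
  -- conjugates `n^{±1} t n^{∓1}` are of the form `t * y`, `y ∈ W`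
  have key : ∀ m ∈ N, Commute (m * t * m⁻¹) t → ∀ u ∈ Q, Commute (m⁻¹ * u * m) t := by
    intro m hm hc u hu
    set y := t⁻¹ * (m * t * m⁻¹) with hy
    have hyN : y ∈ N := by
      have : t⁻¹ * (m * t * m⁻¹) = (t⁻¹ * m * t) * m⁻¹ := by group
      rw [hy, this]
      exact mul_mem (by simpa using hNn.conj_mem m hm t⁻¹) (inv_mem hm)
    have hyt : y * t = t * y := by
      rw [hy]
      have := hc.eq
      calc t⁻¹ * (m * t * m⁻¹) * t = t⁻¹ * ((m * t * m⁻¹) * t) := by group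
        _ = t⁻¹ * (t * (m * t * m⁻¹)) := by rw [this]
        _ = t * (t⁻¹ * (m * t * m⁻¹)) := by group
    have hyu := hWQ y hyN hyt u hu
    have hut := htc u hu
    have h2 : u * (m * t * m⁻¹) = (m * t * m⁻¹) * u := by
      have e : m * t * m⁻¹ = t * y := by rw [hy]; group
      rw [e, ← mul_assoc, hut, mul_assoc, hyu]; group
    show (m⁻¹ * u * m) * t = t * (m⁻¹ * u * m)
    have h3 : m⁻¹ * (u * (m * t * m⁻¹)) * m = m⁻¹ * ((m * t * m⁻¹) * u) * m := by rw [h2]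
    have e1 : m⁻¹ * (u * (m * t * m⁻¹)) * m = (m⁻¹ * u * m) * t := by group
    have e2 : m⁻¹ * ((m * t * m⁻¹) * u) * m = t * (m⁻¹ * u * m) := by group
    rw [e1, e2] at h3
    exact h3
  have hcomm' : Commute (n⁻¹ * t * n⁻¹⁻¹) t := by
    have h1 := hcomm.eq
    show n⁻¹ * t * n⁻¹⁻¹ * t = t * (n⁻¹ * t * n⁻¹⁻¹)
    have h3 : n⁻¹ * ((n * t * n⁻¹) * t) * n = n⁻¹ * (t * (n * t * n⁻¹)) * n := by rw [h1]
    have e1 : n⁻¹ * ((n * t * n⁻¹) * t) * n = t * (n⁻¹ * t * n⁻¹⁻¹) := by group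
    have e2 : n⁻¹ * (t * (n * t * n⁻¹)) * n = n⁻¹ * t * n⁻¹⁻¹ * t := by group
    rw [e1, e2] at h3
    exact h3.symm
  have k1 := key n hn hcomm
  have k2 := key n⁻¹ (inv_mem hn) hcomm'
  -- the cocycle `m u = u⁻¹ * n⁻¹ * u * n`
  let m : G → G := fun u => u⁻¹ * (n⁻¹ * u * n)
  have hmN : ∀ u ∈ Q, m u ∈ N := by
    intro u hu
    show u⁻¹ * (n⁻¹ * u * n) ∈ N
    have : u⁻¹ * (n⁻¹ * u * n) = (u⁻¹ * n⁻¹ * u) * n := by group
    rw [this]
    exact mul_mem (by simpa using hNn.conj_mem n⁻¹ (inv_mem hn) u⁻¹) hn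
  have hmt : ∀ u ∈ Q, m u * t = t * m u := by
    intro u hu
    show u⁻¹ * (n⁻¹ * u * n) * t = t * (u⁻¹ * (n⁻¹ * u * n))
    have h1 := (k1 u hu).eq
    have h2 := htc u⁻¹ (inv_mem hu)
    rw [mul_assoc, h1, ← mul_assoc, h2, mul_assoc]
  have hmQ : ∀ u ∈ Q, ∀ v ∈ Q, v * m u = m u * v := fun u hu =>
    hWQ _ (hmN u hu) (hmt u hu)
  have hconj : ∀ u ∈ Q, n⁻¹ * u * n = u * m u := by
    intro u _
    show n⁻¹ * u * n = u * (u⁻¹ * (n⁻¹ * u * n))
    group
  -- `m u` is conjugate by `n⁻¹` into `W`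
  have hmW : ∀ u ∈ Q, ∀ v ∈ Q, m u * (n⁻¹ * v * n) = (n⁻¹ * v * n) * m u := by
    intro u hu v hv
    -- `r = n * m u * n⁻¹ = n u⁻¹ n⁻¹ u` lies in `N ∩ C(t)`
    set r := n * u⁻¹ * n⁻¹ * u with hr
    have hrN : r ∈ N := by
      rw [hr, mul_assoc (n * u⁻¹), mul_assoc n]
      have : n * (u⁻¹ * (n⁻¹ * u)) = n * (u⁻¹ * n⁻¹ * u) := by group
      rw [this]
      exact mul_mem hn (by simpa using hNn.conj_mem n⁻¹ (inv_mem hn) u⁻¹)
    have hrt : r * t = t * r := by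
      have h1 : Commute (n * u⁻¹ * n⁻¹) t := by
        have := k2 u⁻¹ (inv_mem hu)
        simpa using this
      have h2 := htc u hu
      rw [hr]
      show n * u⁻¹ * n⁻¹ * u * t = t * (n * u⁻¹ * n⁻¹ * u)
      rw [mul_assoc (n * u⁻¹ * n⁻¹), h2, ← mul_assoc, h1.eq, mul_assoc]
    have hrv := hWQ r hrN hrt v hv
    have e : m u = n⁻¹ * r * n := by
      show u⁻¹ * (n⁻¹ * u * n) = n⁻¹ * r * n
      rw [hr]
      group
    rw [e]
    have h3 : n⁻¹ * (v * r) * n = n⁻¹ * (r * v) * n := by rw [hrv]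
    have e1 : n⁻¹ * (v * r) * n = n⁻¹ * v * n * (n⁻¹ * r * n) := by group
    have e2 : n⁻¹ * (r * v) * n = n⁻¹ * r * n * (n⁻¹ * v * n) := by group
    rw [e1, e2] at h3
    exact h3.symm
  have hmm : ∀ u ∈ Q, ∀ v ∈ Q, m u * m v = m v * m u := by
    intro u hu v hv
    have h1 := hmW u hu v hv
    rw [hconj v hv] at h1
    have h2 := hmQ u hu v hv
    have h3 : v * (m u * m v) = v * (m v * m u) := by
      calc v * (m u * m v) = (v * m u) * m v := by group
        _ = (m u * v) * m v := by rw [h2]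
        _ = m u * (v * m v) := by group
        _ = v * m v * m u := h1
        _ = v * (m v * m u) := by group
    exact mul_left_cancel h3
  -- commutators commute with `n`
  have hK : ⁅Q, Q⁆ ≤ centralizer ({n} : Set G) := by
    rw [Subgroup.commutator_le]
    intro u hu v hv
    rw [Subgroup.mem_centralizer_singleton_iff]
    have h1 : n⁻¹ * ⁅u, v⁆ * n = ⁅u, v⁆ := by
      have e : n⁻¹ * ⁅u, v⁆ * n = (n⁻¹ * u * n) * (n⁻¹ * v * n) * (n⁻¹ * u * n)⁻¹ * (n⁻¹ * v * n)⁻¹ := by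
        rw [commutatorElement_def]; group
      rw [e, hconj u hu, hconj v hv, commutatorElement_def]
      have huv := hmQ v hv u hu
      have hvu := hmQ u hu v hv
      have hc := hmm u hu v hv
      set μ := m u
      set ν := m v
      have a1 : (u * μ) * (v * ν) = (u * v) * (μ * ν) := by
        calc (u * μ) * (v * ν) = u * (μ * v) * ν := by group
          _ = u * (v * μ) * ν := by rw [hvu]
          _ = (u * v) * (μ * ν) := by group
      have a2 : (v * ν) * (u * μ) = (v * u) * (μ * ν) := by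
        calc (v * ν) * (u * μ) = v * (ν * u) * μ := by group
          _ = v * (u * ν) * μ := by rw [huv]
          _ = (v * u) * (ν * μ) := by group
          _ = (v * u) * (μ * ν) := by rw [hc]
      have a3 : (u * μ) * (v * ν) * (u * μ)⁻¹ * (v * ν)⁻¹ =
          ((u * μ) * (v * ν)) * ((v * ν) * (u * μ))⁻¹ := by group
      rw [a3, a1, a2]
      group
    generalize ⁅u, v⁆ = c at h1 ⊢
    calc c * n = n * (n⁻¹ * c * n) := by group
      _ = n * c := by rw [h1]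
  have h := Subgroup.mem_centralizer_singleton_iff.1 (hK htQ)
  exact h.symm

include hG htZ hC htQ in
/-- `t` is isolated in `G`. -/
theorem isolated : Isol t := by
  intro g hg
  have htc : ∀ q ∈ Q, q * t = t * q := fun q hq =>
    (Subgroup.mem_centralizer_iff.1 htZ.2 q hq)
  have hg' : g ∈ N ⊔ Q := by rw [sup_comm, hG]; trivial
  obtain ⟨n, hn, q, hq, rfl⟩ := Subgroup.mem_sup_of_normal_left.1 hg'
  have e : n * q * t * (n * q)⁻¹ = n * t * n⁻¹ := by
    have : n * q * t * (n * q)⁻¹ = n * (q * t) * q⁻¹ * n⁻¹ := by group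
    rw [this, htc q hq]
    group
  rw [e] at hg ⊢
  have := commute_of_conj_commute N Q t htZ hC htQ hn hg
  rw [this]
  group

include hG hdisj htZ hC htQ in
/-- `[N, Q] ≤ O(G)`. -/
theorem commutator_le_core (hQ : IsPGroup 2 Q) : ⁅N, Q⁆ ≤ pPrimeCore 2 G := by
  classical
  haveI : Fact (Nat.Prime 2) := ⟨Nat.prime_two⟩
  have htc : ∀ q ∈ Q, q * t = t * q := fun q hq =>
    (Subgroup.mem_centralizer_iff.1 htZ.2 q hq)
  have hiso := isolated N Q hG t htZ hC htQ
  have ht2 : ∃ k : ℕ, orderOf t = 2 ^ k := by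
    obtain ⟨k, hk⟩ := (IsPGroup.iff_orderOf.mp hQ) ⟨t, htZ.1⟩
    exact ⟨k, by rwa [Subgroup.orderOf_mk] at hk⟩
  have hcore := comm_core_of_isolated (Nat.card G) G rfl t ht2 hiso
  have hOn : (pPrimeCore 2 G).Normal := Cfsg.pPrimeCore_normal 2 G
  have hpa : IsPGroup 2 (zpowers t) := by
    obtain ⟨k, hk⟩ := ht2
    apply IsPGroup.of_card (n := k)
    rw [Nat.card_zpowers, hk]
  obtain ⟨S, hS⟩ := hpa.exists_le_sylow
  have htS : t ∈ (S : Subgroup G) := hS (mem_zpowers t)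
  have hcentral := central_in_sylow S htS hiso
  rw [Subgroup.commutator_le]
  intro n hn q hq
  set O := pPrimeCore 2 G with hO
  set y := n * t * n⁻¹ with hy
  have hy2 : ∃ k : ℕ, orderOf y = 2 ^ k := by
    obtain ⟨k, hk⟩ := ht2
    refine ⟨k, ?_⟩
    rw [← hk, hy]
    simpa using (MulAut.conj n).orderOf_eq t
  have hpy : IsPGroup 2 (zpowers y) := by
    obtain ⟨k, hk⟩ := hy2
    apply IsPGroup.of_card (n := k)
    rw [Nat.card_zpowers, hk]
  have hmod : QuotientGroup.mk' O y ∈ (S : Subgroup G).map (QuotientGroup.mk' O) := by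
    refine ⟨t, htS, ?_⟩
    have h1 := hcore n
    exact ((QuotientGroup.eq_iff_div_mem).2 (by simpa [div_eq_mul_inv] using h1)).symm
  obtain ⟨o, ho, hoS⟩ := Cfsg.Agent.Lib.ZStar.Fus.exists_conj_into_of_map S hpy (fun u hu => by
    obtain ⟨j, rfl⟩ := hu
    simp only
    rw [map_zpow]
    exact zpow_mem hmod j)
  have h1 := hcentral _ (hoS y (mem_zpowers y))
  have hcomm : Commute ((o * n) * t * (o * n)⁻¹) t := by
    have e : (o * n) * t * (o * n)⁻¹ = o * y * o⁻¹ := by rw [hy]; group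
    rw [e]
    exact h1
  have h2 := hiso _ hcomm
  -- decomposition of `o * n`
  have hg' : o * n ∈ N ⊔ Q := by rw [sup_comm, hG]; trivial
  obtain ⟨n₁, hn₁, q₁, hq₁, hdec⟩ := Subgroup.mem_sup_of_normal_left.1 hg'
  have hn₁t : n₁ * t = t * n₁ := by
    have h3 : (o * n) * t = t * (o * n) := by
      calc (o * n) * t = ((o * n) * t * (o * n)⁻¹) * (o * n) := by group
        _ = t * (o * n) := by rw [h2]
    rw [← hdec] at h3
    have h4 := htc q₁ hq₁
    have h5 : n₁ * t * q₁ = t * n₁ * q₁ := by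
      calc n₁ * t * q₁ = n₁ * (t * q₁) := by group
        _ = n₁ * (q₁ * t) := by rw [h4]
        _ = n₁ * q₁ * t := by group
        _ = t * (n₁ * q₁) := h3
        _ = t * n₁ * q₁ := by group
    exact mul_right_cancel h5
  have hn₁Q : n₁ ∈ N ⊓ centralizer (Q : Set G) := by
    rw [hC]
    exact ⟨hn₁, Subgroup.mem_centralizer_singleton_iff.2 hn₁t⟩
  have hq₁1 : q₁ = 1 := by
    have hπ : QuotientGroup.mk' N q₁ = QuotientGroup.mk' N o := by
      have e : o = n₁ * q₁ * n⁻¹ := by rw [hdec]; group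
      have e2 : QuotientGroup.mk' N n₁ = 1 := (QuotientGroup.eq_one_iff _).2 hn₁
      have e3 : QuotientGroup.mk' N n = 1 := (QuotientGroup.eq_one_iff _).2 hn
      rw [e, map_mul, map_mul, map_inv, e2, e3]
      simp
    obtain ⟨k, hk⟩ := (IsPGroup.iff_orderOf.mp hQ) ⟨q₁, hq₁⟩
    rw [Subgroup.orderOf_mk] at hk
    have hd1 : orderOf (QuotientGroup.mk' N q₁) ∣ 2 ^ k := by
      rw [← hk]; exact orderOf_map_dvd _ _
    have hd2 : orderOf (QuotientGroup.mk' N q₁) ∣ Nat.card O := by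
      rw [hπ]
      refine (orderOf_map_dvd _ _).trans ?_
      have := Subgroup.orderOf_dvd_natCard O ho
      exact this
    have hcop : Nat.Coprime (2 ^ k) (Nat.card O) :=
      Nat.Coprime.pow_left k (Nat.coprime_two_left.2 (Cfsg.Agent.Lib.ZStar.Cor.odd_card_core))
    have h1' := Nat.eq_one_of_dvd_coprimes hcop hd1 hd2
    have h2' : QuotientGroup.mk' N q₁ = 1 := orderOf_eq_one_iff.1 h1'
    have h3' : q₁ ∈ N := (QuotientGroup.eq_one_iff _).1 h2'
    have h4' : q₁ ∈ Q ⊓ N := ⟨hq₁, h3'⟩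
    rw [hdisj] at h4'
    exact Subgroup.mem_bot.1 h4'
  have hn' : n = o⁻¹ * n₁ := by
    rw [hq₁1, mul_one] at hdec
    rw [hdec]; group
  have hcq : q * n₁ = n₁ * q := Subgroup.mem_centralizer_iff.1 hn₁Q.2 q hq
  have e : ⁅n, q⁆ = o⁻¹ * (q * o * q⁻¹) := by
    rw [commutatorElement_def, hn']
    calc o⁻¹ * n₁ * q * (o⁻¹ * n₁)⁻¹ * q⁻¹ = o⁻¹ * (n₁ * q) * n₁⁻¹ * o * q⁻¹ := by group
      _ = o⁻¹ * (q * n₁) * n₁⁻¹ * o * q⁻¹ := by rw [hcq]
      _ = _ := by group
  rw [e]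
  exact mul_mem (inv_mem ho) (hOn.conj_mem o ho q)

include hG hdisj htZ hC htQ in
/-- `[N, Q]` has odd order. -/
theorem odd_commutator (hQ : IsPGroup 2 Q) : Odd (Nat.card (⁅N, Q⁆ : Subgroup G)) := by
  have h := commutator_le_core N Q hG hdisj t htZ hC htQ hQ
  exact Odd.of_dvd_nat Cfsg.Agent.Lib.ZStar.Cor.odd_card_core (Subgroup.card_dvd_of_le h)

end Setup

end Cfsg.Agent.Lib.IsoTwo.Shared
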